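import Cfsg.Agent.H269.U5.Res

/-!
# Orders of the residual subgroups of `SL_n(q)` (helper788, for S3691)
-/

set_option autoImplicit false

namespace Cfsg.Agent.H788.Rl

open Cfsg Cfsg.Geo Matrix
open scoped MatrixGroups

variable {ι : Type} [Fintype ι] [DecidableEq ι] {F : Type*} [Field F] {H P : Subgroup (GL ι F)}

theorem mem_scalars {g : GL ι F} : g ∈ scalars ι F ↔ ∃ c : Fˣ, (g : Matrix ι ι F) = Matrix.scalar ι (c : F) := by
  constructor
  · rintro ⟨c, rfl⟩
    exact ⟨c, rfl⟩
  · rintro ⟨c, hc⟩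
    exact ⟨c, Units.ext hc.symm⟩

theorem mem_sl {g : GL ι F} (hg : g ∈ specialLinear ι F) : (g : Matrix ι ι F).det = 1 := by
  have h : Matrix.GeneralLinearGroup.det g = 1 := hg
  have := congrArg (Units.val) h
  simpa using this

/-- the scalars of `SL` -/
theorem exists_rou [Nonempty ι] {X : Type*} [Group X] (hHS : H ≤ specialLinear ι F) (φ : H →* X)
    (hφ : ∀ h : H, φ h = 1 → (h : GL ι F) ∈ scalars ι F) :
    ∃ ψ : φ.ker →* rootsOfUnity (Fintype.card ι) F, Function.Injective ψ := by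
  classical
  have h1 : ∀ x : φ.ker, ∃ c : Fˣ, (((x : H) : GL ι F) : Matrix ι ι F) = Matrix.scalar ι (c : F) :=
    fun x => mem_scalars.1 (hφ _ x.2)
  choose c hc using h1
  obtain ⟨i⟩ := (inferInstance : Nonempty ι)
  have hci : ∀ x : φ.ker, (((x : H) : GL ι F) : Matrix ι ι F) i i = (c x : F) := by
    intro x
    rw [hc]
    simp
  have hmem : ∀ x, c x ∈ rootsOfUnity (Fintype.card ι) F := by
    intro x
    rw [mem_rootsOfUnity]
    apply Units.ext
    have h2 := mem_sl (hHS (x : H).2)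
    rw [hc x] at h2
    have h3 : (Matrix.scalar ι (c x : F)).det = (c x : F) ^ Fintype.card ι := by
      rw [Matrix.scalar_apply, Matrix.det_diagonal]
      simp
    rw [h3] at h2
    simpa using h2
  refine ⟨{ toFun := fun x => ⟨c x, hmem x⟩, map_one' := ?_, map_mul' := ?_ }, ?_⟩
  · apply Subtype.ext
    apply Units.ext
    show (c 1 : F) = 1
    rw [← hci]
    simp
  · intro x y
    apply Subtype.ext
    apply Units.ext
    show (c (x * y) : F) = c x * c y
    rw [← hci (x * y)]
    show ((((x : H) : GL ι F) * ((y : H) : GL ι F) : GL ι F) : Matrix ι ι F) i i = _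
    rw [Units.val_mul, hc x, hc y, ← map_mul]
    simp
  · intro x y hxy
    have h2 : c x = c y := congrArg Subtype.val hxy
    apply Subtype.ext
    apply Subtype.ext
    apply Units.ext
    rw [hc x, hc y, h2]

theorem card_ker_le [Nonempty ι] {X : Type*} [Group X] (hHS : H ≤ specialLinear ι F) (φ : H →* X)
    (hφ : ∀ h : H, φ h = 1 → (h : GL ι F) ∈ scalars ι F) : Nat.card φ.ker ≤ Fintype.card ι := by
  obtain ⟨ψ, hψ⟩ := exists_rou hHS φ hφ
  exact (Nat.card_le_card_of_injective ψ hψ).trans (card_rootsOfUnity (R := F) (Fintype.card ι))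

theorem card_ker_dvd [Nonempty ι] [Fintype F] {X : Type*} [Group X] (hHS : H ≤ specialLinear ι F) (φ : H →* X)
    (hφ : ∀ h : H, φ h = 1 → (h : GL ι F) ∈ scalars ι F) : Nat.card φ.ker ∣ Fintype.card F - 1 := by
  obtain ⟨ψ, hψ⟩ := exists_rou hHS φ hφ
  have h1 := Subgroup.card_dvd_of_injective ψ hψ
  have h2 : Nat.card (rootsOfUnity (Fintype.card ι) F) ∣ Nat.card Fˣ := Subgroup.card_subgroup_dvd_card _
  rw [Nat.card_units, Nat.card_eq_fintype_card (α := F)] at h2
  exact h1.trans h2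

theorem card_eq {X : Type*} [Group X] (φ : H →* X) : Nat.card H = Nat.card φ.ker * Nat.card φ.range := by
  rw [Subgroup.card_eq_card_quotient_mul_card_subgroup φ.ker, mul_comm]
  congr 1
  exact Nat.card_congr (QuotientGroup.quotientKerEquivRange φ).toEquiv

/-- the order of a residual subgroup -/
theorem card_le [Nonempty ι] [Finite F] (hP : IsResidualCore H P) (hHS : H ≤ specialLinear ι F) :
    Nat.card H ≤ Fintype.card ι * Nat.card (MulAut (P ⧸ (scalars ι F).subgroupOf P)) := by
  classical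
  obtain ⟨φ, hφ⟩ := Cfsg.Agent.H269.U5.exists_act hP
  rw [card_eq φ]
  exact Nat.mul_le_mul (card_ker_le hHS φ hφ) (Nat.card_le_card_of_injective _ (Subgroup.subtype_injective _))

/-- the primes of the order of a residual subgroup -/
theorem prime_dvd [Nonempty ι] [Fintype F] (hP : IsResidualCore H P) (hHS : H ≤ specialLinear ι F) {u : ℕ} (hu : u.Prime)
    (h : u ∣ Nat.card H) :
    u ∣ Fintype.card F - 1 ∨ u ∣ Nat.card (MulAut (P ⧸ (scalars ι F).subgroupOf P)) := by
  classical
  obtain ⟨φ, hφ⟩ := Cfsg.Agent.H269.U5.exists_act hP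
  rw [card_eq φ] at h
  rcases (hu.dvd_mul).1 h with h1 | h1
  · exact Or.inl (h1.trans (card_ker_dvd hHS φ hφ))
  · exact Or.inr (h1.trans (Subgroup.card_subgroup_dvd_card _))

theorem card_le_of_equiv [Nonempty ι] [Finite F] (hP : IsResidualCore H P) (hHS : H ≤ specialLinear ι F) {S : Type*}
    [Group S] (e : (P ⧸ (scalars ι F).subgroupOf P) ≃* S) {b : ℕ} (hb : Nat.card (MulAut S) ≤ b) :
    Nat.card H ≤ Fintype.card ι * b := by
  refine (card_le hP hHS).trans (Nat.mul_le_mul_left _ ?_)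
  rwa [Nat.card_congr (MulAut.congr e).toEquiv]

theorem prime_dvd_of_equiv [Nonempty ι] [Fintype F] (hP : IsResidualCore H P) (hHS : H ≤ specialLinear ι F) {u : ℕ}
    (hu : u.Prime) (h : u ∣ Nat.card H) {S : Type*} [Group S] (e : (P ⧸ (scalars ι F).subgroupOf P) ≃* S) :
    u ∣ Fintype.card F - 1 ∨ u ∣ Nat.card (MulAut S) := by
  have h1 := prime_dvd hP hHS hu h
  rwa [Nat.card_congr (MulAut.congr e).toEquiv] at h1

end Cfsg.Agent.H788.Rl
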